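import Cfsg.Agent.H550.RX.CentNorm
import Cfsg.Agent.H554.RX.SLQ

/-!
# `C(h_s(-1)) = L_s C(L_s)` over an algebraic closure of a finite field (helper554, TEAM RV, box R3 exceptional)

* `mem_LC_all` : every element commuting with `zz_s` lies in `LC s`.
-/

set_option autoImplicit false
set_option linter.unusedSectionVars false

namespace Cfsg.Agent.H554.RX

open CoxeterSystem Cfsg Cfsg.Lie Cfsg.Lie.ChevalleyDatum
open Cfsg.Agent.ChevalleyStructure Cfsg.Agent.ChevalleyStructure.Elts Cfsg.Agent.ChevalleyStructure.CoxeterGeom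
  Cfsg.Agent.ChevalleyStructure.CoxeterGeomTypes Cfsg.Agent.ChevalleyStructure.NPerm
open Cfsg.Agent.Tits.Roots Cfsg.Agent.Tits.Core Cfsg.Agent.Nodes Cfsg.Agent.Nodes.Reps Cfsg.Agent.Nodes.BNOf
  Cfsg.Agent.Nodes.RGDChev Cfsg.Agent.Nodes.Bruhat Cfsg.Agent.Nodes.NormalForm
open Cfsg.Agent.KFacts.RgdField Cfsg.Agent.KFacts.RgdChevCoord
open Cfsg.Agent.BpExc Cfsg.Agent.BpExc.TorCent Cfsg.Agent.BpExc.TorChev Cfsg.Agent.BpExc.Tow
  Cfsg.Agent.BpExc.TowChev Cfsg.Agent.BpExc.Fr Cfsg.Agent.BpExc.Pair Cfsg.Agent.BpExc.LangFr Cfsg.Agent.GpExc.Field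
  Cfsg.Agent.BpExc.TorAll
open Cfsg.Agent.H469.Exc Cfsg.Agent.H469.Exc.SigFr
open Cfsg.Agent.Nodes.RGDFoldSL
open Cfsg.Agent.ChevalleyStructure.SL2Hom (up lo mem_closure_SL2)
open Cfsg.Agent.H167.EX Cfsg.Agent.H550.RX
open Cfsg.Agent.H412.OT Cfsg.Agent.H3.OT

universe u v

variable {D : ChevalleyDatum} {l : ℕ} {M : CoxeterMatrix (Fin l)} (hp : IsType D l M) {s : ℕ} (hs : s < D.nroots)

include hp in
theorem glMap_monomial {F : Type u} [Field F] {K : Type u} [Field K] (f : F →+* K) {g : GL D.Idx F}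
    (hg : g ∈ D.monomialSubgroup F) : glMap D f g ∈ D.monomialSubgroup K := by
  have h1 : D.monomialSubgroup F ≤ (D.monomialSubgroup K).comap (glMap D f) := by
    refine (monomial_le_iff hp.inList _).2 ⟨fun r hr t ht => ?_, fun r hr => ?_⟩
    · rw [Subgroup.mem_comap, glMap_hG hp]
      exact diagonal_le_monomial D K (hG_mem_diagonal hp.inList hr ((map_ne_zero f).2 ht))
    · rw [Subgroup.mem_comap, glMap_nG hp, map_one]
      exact nG_one_mem_monomial hp.inList hr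
  exact h1 hg

variable {k : Type u} [Field k]

theorem up_ent (t : k) : (up t : SL k).1 0 0 = 1 ∧ (up t : SL k).1 0 1 = t ∧ (up t : SL k).1 1 0 = 0 ∧
    (up t : SL k).1 1 1 = 1 := ⟨rfl, rfl, rfl, rfl⟩

theorem lo_ent (t : k) : (lo t : SL k).1 0 0 = 1 ∧ (lo t : SL k).1 0 1 = 0 ∧ (lo t : SL k).1 1 0 = t ∧
    (lo t : SL k).1 1 1 = 1 := ⟨rfl, rfl, rfl, rfl⟩

/-- the scalars on the two root subgroups are inverse to each other -/
theorem scal_eq (h2 : (2 : k) ≠ 0) {c c' : k} (h : (up c * (lo (-c') * up c) : SL k) * (up c * (lo (-c') * up c)) = hS (-1)) :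
    c * c' = 1 := by
  obtain ⟨A, hA⟩ : ∃ A : SL k, A = up c * (lo (-c') * up c) := ⟨_, rfl⟩
  rw [← hA] at h
  obtain ⟨u1, u2, u3, u4⟩ := up_ent c
  obtain ⟨l1, l2, l3, l4⟩ := lo_ent (-c')
  obtain ⟨n1, n2, n3, n4⟩ := neg_ent (k := k)
  have a00 : A.1 0 0 = 1 - c * c' := by
    rw [hA, mul00, mul00, mul10, u1, u2, u3, l1, l2, l3, l4]; ring
  have a01 : A.1 0 1 = c * (2 - c * c') := by
    rw [hA, mul01, mul01, mul11, u1, u2, u4, l1, l2, l3, l4]; ring
  have a10 : A.1 1 0 = -c' := by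
    rw [hA, mul10, mul00, mul10, u1, u3, u4, l1, l2, l3, l4]; ring
  have a11 : A.1 1 1 = 1 - c * c' := by
    rw [hA, mul11, mul01, mul11, u2, u3, u4, l1, l2, l3, l4]; ring
  have h00 : (A * A).1 0 0 = -1 := by rw [h, n1]
  have h10 : (A * A).1 1 0 = 0 := by rw [h, n3]
  rw [mul00, a00, a01, a10] at h00
  rw [mul10, a10, a00, a11] at h10
  by_cases hc' : c' = 0
  · exfalso
    rw [hc'] at h00
    apply h2
    linear_combination h00
  · have h3 : (2 * c') * (1 - c * c') = 0 := by linear_combination -h10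
    have h4 := (mul_eq_zero.1 h3).resolve_left (mul_ne_zero h2 hc')
    linear_combination -h4

theorem hS_conj_up {μ : k} (hμ : μ ≠ 0) (a : k) : (hS μ : SL k) * up a * (hS μ)⁻¹ = up (μ * μ * a) := by
  rw [mul_inv_eq_iff_eq_mul]
  obtain ⟨h1, h2, h3, h4⟩ := hS_ent hμ
  obtain ⟨u1, u2, u3, u4⟩ := up_ent a
  obtain ⟨v1, v2, v3, v4⟩ := up_ent (μ * μ * a)
  refine sl_ext ?_ ?_ ?_ ?_
  · rw [mul00, mul00, h1, h2, h3, u1, u3, v1, v2]; ring
  · rw [mul01, mul01, h1, h2, h4, u2, u4, v1, v2]; field_simp; ring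
  · rw [mul10, mul10, h1, h3, h4, u1, u3, v3, v4]; ring
  · rw [mul11, mul11, h2, h3, h4, u2, u4, v3, v4]; ring

theorem hS_conj_lo {μ : k} (hμ : μ ≠ 0) (a : k) : (hS μ : SL k) * lo a * (hS μ)⁻¹ = lo ((μ * μ)⁻¹ * a) := by
  rw [mul_inv_eq_iff_eq_mul]
  obtain ⟨h1, h2, h3, h4⟩ := hS_ent hμ
  obtain ⟨u1, u2, u3, u4⟩ := lo_ent a
  obtain ⟨v1, v2, v3, v4⟩ := lo_ent ((μ * μ)⁻¹ * a)
  refine sl_ext ?_ ?_ ?_ ?_
  · rw [mul00, mul00, h1, h2, h3, u1, u3, v1, v2]; ring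
  · rw [mul01, mul01, h1, h2, h4, u2, u4, v1, v2]; ring
  · rw [mul10, mul10, h1, h3, h4, u1, u3, v3, v4]; field_simp; ring
  · rw [mul11, mul11, h2, h3, h4, u2, u4, v3, v4]; ring

theorem wS_conj_up (a : k) : (wS 1 : SL k) * up a * (wS 1)⁻¹ = lo (-a) := by
  rw [mul_inv_eq_iff_eq_mul]
  obtain ⟨h1, h2, h3, h4⟩ := wS_ent (k := k) (c := 1) one_ne_zero
  obtain ⟨u1, u2, u3, u4⟩ := up_ent a
  obtain ⟨v1, v2, v3, v4⟩ := lo_ent (-a)
  rw [inv_one] at h3
  refine sl_ext ?_ ?_ ?_ ?_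
  · rw [mul00, mul00, h1, h2, h3, u1, u3, v1, v2]; ring
  · rw [mul01, mul01, h1, h2, h4, u2, u4, v1, v2]; ring
  · rw [mul10, mul10, h1, h3, h4, u1, u3, v3, v4]; ring
  · rw [mul11, mul11, h2, h3, h4, u2, u4, v3, v4]; ring

theorem wS_conj_lo (a : k) : (wS 1 : SL k) * lo a * (wS 1)⁻¹ = up (-a) := by
  rw [mul_inv_eq_iff_eq_mul]
  obtain ⟨h1, h2, h3, h4⟩ := wS_ent (k := k) (c := 1) one_ne_zero
  obtain ⟨u1, u2, u3, u4⟩ := lo_ent a
  obtain ⟨v1, v2, v3, v4⟩ := up_ent (-a)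
  rw [inv_one] at h3
  refine sl_ext ?_ ?_ ?_ ?_
  · rw [mul00, mul00, h1, h2, h3, u1, u3, v1, v2]; ring
  · rw [mul01, mul01, h1, h2, h4, u2, u4, v1, v2]; ring
  · rw [mul10, mul10, h1, h3, h4, u1, u3, v3, v4]; ring
  · rw [mul11, mul11, h2, h3, h4, u2, u4, v3, v4]; ring

/-- an element commuting with `zz` which acts on the two root subgroups by scalars -/
theorem LC_of_scal [IsAlgClosed k] (h2 : (2 : k) ≠ 0) (hinj : Function.Injective (ph hp k hs)) {ω : ↥(D.group k)}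
    (hz : ω * zz hp (k := k) hs = zz hp hs * ω) {c c' : k}
    (hc : ∀ a, ω * ph hp k hs (up a) * ω⁻¹ = ph hp k hs (up (c * a)))
    (hc' : ∀ a, ω * ph hp k hs (lo a) * ω⁻¹ = ph hp k hs (lo (c' * a))) : ω ∈ LC hp (k := k) hs := by
  have hcc : c * c' = 1 := by
    refine scal_eq h2 ?_
    have e1 : (up 1 * (lo (-1) * up 1) : SL k) = wS 1 := by
      unfold wS; rw [inv_one]
    apply hinj
    have e2 : ph hp k hs (up c * (lo (-c') * up c)) = ω * ph hp k hs (wS 1) * ω⁻¹ := by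
      have h3 := hc 1
      have h4 := hc' (-1)
      rw [mul_one] at h3
      rw [mul_neg, mul_one] at h4
      rw [map_mul, map_mul, ← h3, ← h4, ← e1, map_mul, map_mul]
      group
    rw [map_mul, e2]
    calc ω * ph hp k hs (wS 1) * ω⁻¹ * (ω * ph hp k hs (wS 1) * ω⁻¹)
        = ω * (ph hp k hs (wS 1) * ph hp k hs (wS 1)) * ω⁻¹ := by group
      _ = ω * zz hp hs * ω⁻¹ := by rw [← map_mul, nn_eq one_ne_zero]; rfl
      _ = ph hp k hs (hS (-1)) := by rw [hz, mul_inv_cancel_right]; rfl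
  obtain ⟨μ, hμ⟩ := IsAlgClosed.exists_pow_nat_eq c (show 0 < 2 by norm_num)
  have hc0 : c ≠ 0 := left_ne_zero_of_mul_eq_one hcc
  have hμ0 : μ ≠ 0 := by
    rintro rfl
    apply hc0
    rw [← hμ, zero_pow (by norm_num)]
  have hμμ : μ * μ = c := by rw [← hμ, pow_two]
  have hc'e : c' = (μ * μ)⁻¹ := by rw [hμμ]; exact eq_inv_of_mul_eq_one_right hcc
  refine (mem_LC hp hs).2 ⟨hS μ, (ph hp k hs (hS μ))⁻¹ * ω, mem_cent hp hs (fun t => ?_) (fun t => ?_), by group⟩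
  · rw [← ph_up hp hs]
    have h3 := hc t
    rw [← hμμ, ← hS_conj_up hμ0, map_mul, map_mul, map_inv] at h3
    calc (ph hp k hs (hS μ))⁻¹ * ω * ph hp k hs (up t)
        = (ph hp k hs (hS μ))⁻¹ * (ω * ph hp k hs (up t) * ω⁻¹) * ω := by group
      _ = ph hp k hs (up t) * ((ph hp k hs (hS μ))⁻¹ * ω) := by rw [h3]; group
  · rw [← ph_lo hp hs]
    have h3 := hc' t
    rw [hc'e, ← hS_conj_lo hμ0, map_mul, map_mul, map_inv] at h3
    calc (ph hp k hs (hS μ))⁻¹ * ω * ph hp k hs (lo t)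
        = (ph hp k hs (hS μ))⁻¹ * (ω * ph hp k hs (lo t) * ω⁻¹) * ω := by group
      _ = ph hp k hs (lo t) * ((ph hp k hs (hS μ))⁻¹ * ω) := by rw [h3]; group

theorem zz_comm_ph (A : SL k) : ph hp k hs A * zz hp hs = zz hp hs * ph hp k hs A := by
  unfold zz
  rw [← map_mul, ← map_mul, neg_comm]

/-- monomial elements commuting with `zz` -/
theorem mono_mem_LC [IsAlgClosed k] (h2 : (2 : k) ≠ 0) (hinj : Function.Injective (ph hp k hs))
    (hB : H808.RV.tabB D s = true) {n : ↥(D.group k)} (hn : (n : GL D.Idx k) ∈ D.monomialSubgroup k)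
    (hz : n * zz hp (k := k) hs = zz hp hs * n) : n ∈ LC hp (k := k) hs := by
  have hD := hp.inList
  have hzv : ((zz hp (k := k) hs : ↥(D.group k)) : GL D.Idx k) = hG hD s (-1) := by
    unfold zz
    rw [coe_ph, psi_hS hD hs]
  have hz' : (n : GL D.Idx k) * hG hD s (-1) = hG hD s (-1) * (n : GL D.Idx k) := by
    have h7 := congrArg Subtype.val hz
    rwa [Subgroup.coe_mul, Subgroup.coe_mul, hzv] at h7
  have h1 := H808.RV.perm_of_comm hD h2 hs hB ⟨(n : GL D.Idx k), hn⟩ hz'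
  obtain ⟨c, -, hc⟩ := conj_xG hD ⟨(n : GL D.Idx k), hn⟩ ⟨s, hs⟩
  obtain ⟨c', -, hc'⟩ := conj_xG hD ⟨(n : GL D.Idx k), hn⟩ ⟨D.neg s, neg_lt hD hs⟩
  have hneg := H808.RV.perm_neg hD ⟨(n : GL D.Idx k), hn⟩ hs
  simp only at hc hc'
  rw [hneg] at hc'
  rcases h1 with h | h
  · rw [h] at hc hc'
    refine LC_of_scal hp hs h2 hinj hz (c := c) (c' := c') (fun a => ?_) (fun a => ?_)
    · rw [ph_up, ph_up]; exact Subtype.ext (hc a)
    · rw [ph_lo, ph_lo]; exact Subtype.ext (hc' a)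
  · rw [h] at hc hc'
    rw [H808.RV.neg_neg_eq' hD hs] at hc'
    have hc1 : ∀ a, n * ph hp k hs (up a) * n⁻¹ = ph hp k hs (lo (c * a)) := fun a => by
      rw [ph_up, ph_lo]; exact Subtype.ext (hc a)
    have hc2 : ∀ a, n * ph hp k hs (lo a) * n⁻¹ = ph hp k hs (up (c' * a)) := fun a => by
      rw [ph_up, ph_lo]; exact Subtype.ext (hc' a)
    have h3 : ph hp k hs (wS 1) * n ∈ LC hp (k := k) hs := by
      refine LC_of_scal hp hs h2 hinj (c := -c) (c' := -c') ?_ (fun a => ?_) (fun a => ?_)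
      · rw [mul_assoc, hz, ← mul_assoc, zz_comm_ph, mul_assoc]
      · calc ph hp k hs (wS 1) * n * ph hp k hs (up a) * (ph hp k hs (wS 1) * n)⁻¹
            = ph hp k hs (wS 1) * (n * ph hp k hs (up a) * n⁻¹) * (ph hp k hs (wS 1))⁻¹ := by group
          _ = ph hp k hs (up (-c * a)) := by
              rw [hc1, ← map_mul, ← map_inv, ← map_mul, wS_conj_lo, neg_mul]
      · calc ph hp k hs (wS 1) * n * ph hp k hs (lo a) * (ph hp k hs (wS 1) * n)⁻¹
            = ph hp k hs (wS 1) * (n * ph hp k hs (lo a) * n⁻¹) * (ph hp k hs (wS 1))⁻¹ := by group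
          _ = ph hp k hs (lo (-c' * a)) := by
              rw [hc2, ← map_mul, ← map_inv, ← map_mul, wS_conj_up, neg_mul]
    have h4 : ph hp k hs (wS 1) ∈ LC hp (k := k) hs := (mem_LC hp hs).2 ⟨wS 1, 1, one_mem _, by rw [mul_one]⟩
    have h5 := mul_mem (inv_mem h4) h3
    rwa [inv_mul_cancel_left] at h5

/-- **`C(zz_s) = L_s C(L_s)`.** -/
theorem mem_LC_all [IsAlgClosed k] (h2 : (2 : k) ≠ 0) (p : ℕ) [Fact p.Prime] [CharP k p] (hk : LocFin k)
    (hinj : Function.Injective (ph hp k hs)) (hA : H808.RV.tabA D s = true) (hB : H808.RV.tabB D s = true)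
    {g : ↥(D.group k)} (hg : g * zz hp (k := k) hs = zz hp hs * g) : g ∈ LC hp (k := k) hs := by
  have hD := hp.inList
  obtain ⟨E, h1⟩ := exists_level hp hk g
  obtain ⟨g', rfl⟩ := h1 E le_rfl
  have hinjE : Function.Injective (emb hD E.1.subtype) := emb_injective hD _
  have h5 : g' * zz hp (k := ↥E.1) hs = zz hp (k := ↥E.1) hs * g' := by
    apply hinjE
    rw [map_mul, map_mul, zz_emb, hg]
  have h2E : (2 : ↥E.1) ≠ 0 := by
    intro h
    apply h2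
    have h0 := congrArg E.1.subtype h
    rwa [map_ofNat, map_zero] at h0
  have h8 : ((zz hp (k := ↥E.1) hs : ↥(D.group ↥E.1)) : GL D.Idx ↥E.1) = hG hD s (-1) := by
    unfold zz
    rw [coe_ph, psi_hS hD hs]
  have h6 : (g' : GL D.Idx ↥E.1) * hG hD s (-1) = hG hD s (-1) * (g' : GL D.Idx ↥E.1) := by
    have h7 := congrArg Subtype.val h5
    rwa [Subgroup.coe_mul, Subgroup.coe_mul, h8] at h7
  have hm1 : (-1 : ↥E.1) ≠ 0 := neg_ne_zero.2 one_ne_zero
  have hzm := hG_mem hD hs hm1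
  have hZ : Subgroup.zpowers (hG hD s (-1 : ↥E.1)) ≤ D.diagonalSubgroup ↥E.1 := by
    rw [Subgroup.zpowers_le]; exact hzm
  have hc : (g' : GL D.Idx ↥E.1) ∈ Subgroup.centralizer (Subgroup.zpowers (hG hD s (-1 : ↥E.1)) : Set (GL D.Idx ↥E.1)) := by
    rw [Subgroup.mem_centralizer_iff]
    intro x hx
    obtain ⟨n, rfl⟩ := Subgroup.mem_zpowers_iff.1 hx
    exact ((show Commute (g' : GL D.Idx ↥E.1) (hG hD s (-1 : ↥E.1)) from h6).zpow_right n).symm
  obtain ⟨u, hu, n, hn, hnc, v, hv, he⟩ := cent_form hD hZ g'.2 hc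
  -- the part `GS`
  let R : Subgroup (GL D.Idx k) := (LC hp (k := k) hs).map (D.group k).subtype
  have hGS : GS D ↥E.1 (PsiZ D ↥E.1 (Subgroup.zpowers (hG hD s (-1 : ↥E.1)))) ≤ R.comap (glMap D E.1.subtype) := by
    refine sup_le ?_ (iSup₂_le fun r hr => ?_)
    · intro t ht
      have h9 := glMap_diagonal hp E.1.subtype ht
      have h10 : glMap D E.1.subtype t ∈ D.group k := diagonal_le_group hD k h9
      exact ⟨⟨_, h10⟩, TT_le_LC hp hs p hk h9, rfl⟩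
    · intro t ht
      obtain ⟨a, rfl⟩ := (mem_rootSubgroup_iff hD r t).1 ht
      rw [Subgroup.mem_comap, glMap_xG hD]
      refine ⟨xs hD r (E.1.subtype a), ?_, rfl⟩
      have h3 := hr.2 _ (Subgroup.mem_zpowers _)
      rw [chi_hG hD hs hr.1 hm1] at h3
      rcases H808.RV.tabA_spec hA hr.1 (H808.RV.neg_one_zpow_eq h2E h3) with rfl | rfl | h
      · exact (mem_LC hp hs).2 ⟨up _, 1, one_mem _, by rw [ph_up, mul_one]⟩
      · exact (mem_LC hp hs).2 ⟨lo _, 1, one_mem _, by rw [ph_lo, mul_one]⟩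
      · refine (mem_LC hp hs).2 ⟨1, _, ?_, by rw [map_one, one_mul]⟩
        rw [Subgroup.mem_centralizer_iff]
        rintro _ ⟨A, rfl⟩
        exact (Subtype.ext (H808.RV.orth_comm hD hs hr.1 h _ A)).symm
  have hnG : n ∈ D.group ↥E.1 := monomial_le_group hD _ hn
  have hnk := glMap_monomial hp E.1.subtype hn
  have hnz : n * hG hD s (-1) = hG hD s (-1) * n := (Subgroup.mem_centralizer_iff.1 hnc _ (Subgroup.mem_zpowers _)).symm
  have hN : emb hD E.1.subtype ⟨n, hnG⟩ ∈ LC hp (k := k) hs := by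
    refine mono_mem_LC hp hs h2 hinj hB hnk ?_
    rw [← zz_emb hp hs E.1.subtype, ← map_mul, ← map_mul]
    congr 1
    apply Subtype.ext
    rw [Subgroup.coe_mul, Subgroup.coe_mul, h8]
    exact hnz
  obtain ⟨u', hu', hue⟩ := hGS hu
  obtain ⟨v', hv', hve⟩ := hGS hv
  have hfin : emb hD E.1.subtype g' = u' * emb hD E.1.subtype ⟨n, hnG⟩ * v' := by
    apply Subtype.ext
    rw [Subgroup.coe_mul, Subgroup.coe_mul, coe_emb, coe_emb, he, map_mul, map_mul]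
    show glMap D E.1.subtype u * glMap D E.1.subtype n * glMap D E.1.subtype v = _
    rw [← hue, ← hve]
    rfl
  rw [hfin]
  exact mul_mem (mul_mem hu' hN) hv'

end Cfsg.Agent.H554.RX
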