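import Cfsg.Agent.H554.RX.Perm

/-!
# The conjugates of the `z_i` centralising the frame (helper554, TEAM RV, box R3 exceptional)

* `neg_mem_of_normal` : a nontrivial normal subgroup of `SL₂(k)` contains `-1`;
* `FrA.mk'` : the field `inv` of `FrA` follows from the others.
-/

set_option autoImplicit false
set_option linter.unusedSectionVars false

namespace Cfsg.Agent.H554.RX

open Subgroup
open scoped Pointwise
open Cfsg.Agent.Nodes.RGDFoldSL (wS hS)
open Cfsg.Agent.H167.EX (SL sl_ext mul00 mul01 mul10 mul11)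
open Cfsg.Agent.ChevalleyStructure.SL2Hom (up lo)

universe u v w

variable {k : Type u} [Field k]

/-! ### normal subgroups of `SL₂(k)` -/

theorem det_ent (A : SL k) : A.1 0 0 * A.1 1 1 - A.1 0 1 * A.1 1 0 = 1 := by
  rw [← Matrix.det_fin_two, A.2]

theorem up_ent' (t : k) : (up t : SL k).1 0 0 = 1 ∧ (up t : SL k).1 0 1 = t ∧ (up t : SL k).1 1 0 = 0 ∧
    (up t : SL k).1 1 1 = 1 := ⟨rfl, rfl, rfl, rfl⟩

theorem lo_ent' (t : k) : (lo t : SL k).1 0 0 = 1 ∧ (lo t : SL k).1 0 1 = 0 ∧ (lo t : SL k).1 1 0 = t ∧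
    (lo t : SL k).1 1 1 = 1 := ⟨rfl, rfl, rfl, rfl⟩

/-- elements of trace 0 -/
theorem sq_of_trace {X : SL k} (h : X.1 0 0 + X.1 1 1 = 0) : X * X = hS (-1) := by
  have hd := det_ent X
  obtain ⟨n1, n2, n3, n4⟩ := neg_ent (k := k)
  refine sl_ext ?_ ?_ ?_ ?_
  · rw [mul00, n1]; linear_combination X.1 0 0 * h - hd
  · rw [mul01, n2]; linear_combination X.1 0 1 * h
  · rw [mul10, n3]; linear_combination X.1 1 0 * h
  · rw [mul11, n4]; linear_combination X.1 1 1 * h - hd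

section Nrm

variable [IsAlgClosed k] {J : Subgroup (SL k)} (hJ : ∀ A ∈ J, ∀ B : SL k, B * A * B⁻¹ ∈ J)
include hJ

theorem neg_mem_of_upper {A : SL k} (hA : A ∈ J) (hb : A.1 0 1 ≠ 0) : hS (-1) ∈ J := by
  obtain ⟨a, b, c, d, ha, hb', hc, hd⟩ : ∃ a b c d, A.1 0 0 = a ∧ A.1 0 1 = b ∧ A.1 1 0 = c ∧ A.1 1 1 = d :=
    ⟨_, _, _, _, rfl, rfl, rfl, rfl⟩
  rw [hb'] at hb
  obtain ⟨t, ht⟩ := IsAlgClosed.exists_pow_nat_eq ((a * a + d * d + 2 * (b * c)) / (b * b)) (show 0 < 2 by norm_num)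
  have ht' : b * b * (t * t) = a * a + d * d + 2 * (b * c) := by
    rw [← pow_two t, ht]
    field_simp
  obtain ⟨l1, l2, l3, l4⟩ := lo_ent' t
  obtain ⟨m1, m2, m3, m4⟩ := lo_ent' (-t)
  have hinv : (lo t : SL k)⁻¹ = lo (-t) := by
    rw [inv_eq_iff_mul_eq_one]
    obtain ⟨g1, g2, g3, g4⟩ := one_ent (k := k)
    refine sl_ext ?_ ?_ ?_ ?_
    · rw [mul00, l1, l2, m1, m3, g1]; ring
    · rw [mul01, l1, l2, m2, m4, g2]; ring
    · rw [mul10, l3, l4, m1, m3, g3]; ring
    · rw [mul11, l3, l4, m2, m4, g4]; ring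
  have h1 : A * (lo t * A * (lo t)⁻¹) ∈ J := J.mul_mem hA (hJ A hA _)
  have h3 : (A * (lo t * A * (lo t)⁻¹)) * (A * (lo t * A * (lo t)⁻¹)) = hS (-1) := by
    refine sq_of_trace ?_
    rw [hinv]
    simp only [mul00, mul01, mul10, mul11, l1, l2, l3, l4, m1, m2, m3, m4, ha, hb', hc, hd]
    linear_combination -ht'
  rw [← h3]
  exact J.mul_mem h1 h1

/-- **A nontrivial normal subgroup of `SL₂(k)` contains `-1`.** -/
theorem neg_mem_of_normal {A : SL k} (hA : A ∈ J) (h1 : A ≠ 1) : hS (-1) ∈ J := by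
  by_cases hb : A.1 0 1 = 0
  · by_cases hc : A.1 1 0 = 0
    · by_cases had : A.1 0 0 = A.1 1 1
      · rcases eq_of_scalar hb hc had with h | h
        · exact absurd h h1
        · rwa [← h]
      · refine neg_mem_of_upper hJ (hJ A hA (up 1)) ?_
        obtain ⟨l1, l2, l3, l4⟩ := up_ent' (1 : k)
        obtain ⟨m1, m2, m3, m4⟩ := up_ent' (-1 : k)
        have hinv : (up 1 : SL k)⁻¹ = up (-1) := by
          rw [inv_eq_iff_mul_eq_one]
          obtain ⟨g1, g2, g3, g4⟩ := one_ent (k := k)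
          refine sl_ext ?_ ?_ ?_ ?_
          · rw [mul00, l1, l2, m1, m3, g1]; ring
          · rw [mul01, l1, l2, m2, m4, g2]; ring
          · rw [mul10, l3, l4, m1, m3, g3]; ring
          · rw [mul11, l3, l4, m2, m4, g4]; ring
        rw [hinv]
        simp only [mul00, mul01, mul10, mul11, l1, l2, l3, l4, m1, m2, m3, m4, hb, hc]
        intro h
        apply had
        linear_combination -h
    · refine neg_mem_of_upper hJ (hJ A hA (wS 1)) ?_
      obtain ⟨w1, w2, w3, w4⟩ := wS_ent (k := k) (c := 1) one_ne_zero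
      obtain ⟨v1, v2, v3, v4⟩ := wS_ent (k := k) (c := -1) (neg_ne_zero.2 one_ne_zero)
      rw [inv_one] at w3
      rw [inv_neg, inv_one, neg_neg] at v3
      have hinv : (wS 1 : SL k)⁻¹ = wS (-1) := by
        rw [inv_eq_iff_mul_eq_one]
        obtain ⟨g1, g2, g3, g4⟩ := one_ent (k := k)
        refine sl_ext ?_ ?_ ?_ ?_
        · rw [mul00, w1, w2, v1, v3, g1]; ring
        · rw [mul01, w1, w2, v2, v4, g2]; ring
        · rw [mul10, w3, w4, v1, v3, g3]; ring
        · rw [mul11, w3, w4, v2, v4, g4]; ring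
      rw [hinv]
      simp only [mul00, mul01, mul10, mul11, w1, w2, w3, w4, v1, v2, v3, v4]
      intro h
      apply hc
      linear_combination -h
  · exact neg_mem_of_upper hJ hA hb

end Nrm

/-! ### one fundamental subgroup -/

variable {Γ : Type v} [Group Γ]

/-- an injective homomorphism with `C(z) = L C(L)` -/
structure Fun1 (φ : SL k →* Γ) : Prop where
  inj : Function.Injective φ
  lc : ∀ g, g * φ (hS (-1)) = φ (hS (-1)) * g → ∃ A c, (∀ B, c * φ B = φ B * c) ∧ g = φ A * c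

namespace Fun1

variable {φ : SL k →* Γ} (O : Fun1 φ)
include O

theorem conj (g : Γ) : Fun1 ((MulAut.conj g).toMonoidHom.comp φ) where
  inj := (MulAut.conj g).injective.comp O.inj
  lc := by
    intro h hh
    have h1 : h * (g * φ (hS (-1)) * g⁻¹) = (g * φ (hS (-1)) * g⁻¹) * h := hh
    obtain ⟨A, c, hc, he⟩ := O.lc (g⁻¹ * h * g) (by
      calc g⁻¹ * h * g * φ (hS (-1)) = g⁻¹ * (h * (g * φ (hS (-1)) * g⁻¹)) * g := by group
        _ = g⁻¹ * ((g * φ (hS (-1)) * g⁻¹) * h) * g := by rw [h1]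
        _ = φ (hS (-1)) * (g⁻¹ * h * g) := by group)
    refine ⟨A, g * c * g⁻¹, fun B => ?_, ?_⟩
    · show g * c * g⁻¹ * (g * φ B * g⁻¹) = g * φ B * g⁻¹ * (g * c * g⁻¹)
      calc g * c * g⁻¹ * (g * φ B * g⁻¹) = g * (c * φ B) * g⁻¹ := by group
        _ = g * (φ B * c) * g⁻¹ := by rw [hc]
        _ = _ := by group
    · show h = g * φ A * g⁻¹ * (g * c * g⁻¹)
      calc h = g * (g⁻¹ * h * g) * g⁻¹ := by group
        _ = g * (φ A * c) * g⁻¹ := by rw [he]
        _ = _ := by group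

/-- the elements of `L` centralising `L` are central -/
theorem central {E : SL k} (h : ∀ B, φ E * φ B = φ B * φ E) : ∀ B, E * B = B * E := by
  intro B
  apply O.inj
  rw [map_mul, map_mul, h]

/-- **Lemma Q.** -/
theorem cent_of_quat {z' x' n' : Γ} (hx : x' * x' = z') (hn : n' * n' = z') (hxn : x' * n' = n' * x' * z')
    (h1 : x' * φ (hS (-1)) = φ (hS (-1)) * x') (h2 : n' * φ (hS (-1)) = φ (hS (-1)) * n') :
    ∀ B, z' * φ B = φ B * z' := by
  obtain ⟨A, c, hc, rfl⟩ := O.lc x' h1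
  obtain ⟨B, d, hd, rfl⟩ := O.lc n' h2
  have e1 : z' = φ (A * A) * (c * c) := by
    rw [← hx, map_mul]
    calc φ A * c * (φ A * c) = φ A * (c * φ A) * c := by group
      _ = φ A * (φ A * c) * c := by rw [hc]
      _ = φ A * φ A * (c * c) := by group
  have e2 : z' = φ (B * B) * (d * d) := by
    rw [← hn, map_mul]
    calc φ B * d * (φ B * d) = φ B * (d * φ B) * d := by group
      _ = φ B * (φ B * d) * d := by rw [hd]
      _ = φ B * φ B * (d * d) := by group
  have hcc : ∀ X, (c * c) * φ X = φ X * (c * c) := fun X => by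
    rw [mul_assoc, hc, ← mul_assoc, hc, mul_assoc]
  have hdd : ∀ X, (d * d) * φ X = φ X * (d * d) := fun X => by
    rw [mul_assoc, hd, ← mul_assoc, hd, mul_assoc]
  -- it suffices that `A²` is central
  suffices hA : ∀ P : SL k, (A * A) * P = P * (A * A) by
    intro X
    rw [e1, mul_assoc, hcc, ← mul_assoc, ← map_mul, hA, map_mul, mul_assoc]
  by_contra hA
  -- `A² = ε B²`
  have hε : ∀ P : SL k, ((B * B)⁻¹ * (A * A)) * P = P * ((B * B)⁻¹ * (A * A)) := by
    refine O.central fun X => ?_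
    have e3 : φ ((B * B)⁻¹ * (A * A)) = (d * d) * (c * c)⁻¹ := by
      rw [map_mul, map_inv, inv_mul_eq_iff_eq_mul, ← mul_assoc, ← e2, e1]
      group
    have hcc' : (c * c)⁻¹ * φ X = φ X * (c * c)⁻¹ := by
      rw [inv_mul_eq_iff_eq_mul, ← mul_assoc, hcc]; group
    rw [e3, mul_assoc, hcc', ← mul_assoc, hdd]
    group
  obtain ⟨ε, hεd⟩ : ∃ ε, ε = (B * B)⁻¹ * (A * A) := ⟨_, rfl⟩
  rw [← hεd] at hε
  have hAB : A * A = (B * B) * ε := by rw [hεd]; group
  have hBA : B * (A * A) = (A * A) * B := by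
    rw [hAB]
    calc B * (B * B * ε) = B * B * (B * ε) := by group
      _ = B * B * (ε * B) := by rw [hε]
      _ = B * B * ε * B := by group
  have hAA : A * (A * A) = (A * A) * A := by group
  have hcomm : A * B = B * A := Cfsg.Agent.H167.EX.cent_abel hAA hBA hA
  apply hA
  have hinv : ∀ P : SL k, (A * A)⁻¹ * P = P * (A * A)⁻¹ := by
    refine O.central fun X => ?_
    have e4 : φ (A * A)⁻¹ = (d * c * (c * c)) * (c * d)⁻¹ := by
      have e5 : φ (A * B) * (c * d) = φ (A * B) * (φ (A * A) * (d * c * (c * c))) := by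
        calc φ (A * B) * (c * d) = φ A * (φ B * c) * d := by rw [map_mul]; group
          _ = φ A * (c * φ B) * d := by rw [hc]
          _ = (φ A * c) * (φ B * d) := by group
          _ = (φ B * d) * (φ A * c) * z' := hxn
          _ = φ B * (d * φ A) * c * (φ (A * A) * (c * c)) := by rw [e1]; group
          _ = φ B * (φ A * d) * c * (φ (A * A) * (c * c)) := by rw [hd]
          _ = φ B * φ A * d * (c * φ (A * A)) * (c * c) := by group
          _ = φ B * φ A * d * (φ (A * A) * c) * (c * c) := by rw [hc]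
          _ = φ B * φ A * (d * φ (A * A)) * (c * (c * c)) := by group
          _ = φ B * φ A * (φ (A * A) * d) * (c * (c * c)) := by rw [hd]
          _ = φ (A * B) * (φ (A * A) * (d * c * (c * c))) := by rw [hcomm]; simp only [map_mul]; group
      have e6 := mul_left_cancel e5
      rw [map_inv, eq_mul_inv_iff_mul_eq, inv_mul_eq_iff_eq_mul]
      exact e6
    have q1 : (d * c * (c * c)) * φ X = φ X * (d * c * (c * c)) := by
      calc (d * c * (c * c)) * φ X = d * c * ((c * c) * φ X) := by group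
        _ = d * (c * φ X) * (c * c) := by rw [hcc]; group
        _ = (d * φ X) * c * (c * c) := by rw [hc]; group
        _ = φ X * (d * c * (c * c)) := by rw [hd]; group
    have q2 : (c * d) * φ X = φ X * (c * d) := by rw [mul_assoc, hd, ← mul_assoc, hc, mul_assoc]
    have q3 : (c * d)⁻¹ * φ X = φ X * (c * d)⁻¹ := by
      rw [inv_mul_eq_iff_eq_mul, ← mul_assoc, q2]; group
    rw [e4, mul_assoc, q3, ← mul_assoc, q1]
    group
  intro P
  have h3 := hinv P
  calc (A * A) * P = (A * A) * (P * (A * A)⁻¹) * (A * A) := by group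
    _ = (A * A) * ((A * A)⁻¹ * P) * (A * A) := by rw [h3]
    _ = P * (A * A) := by group


/-- elements commuting with `z` normalise `L` -/
theorem norm {g : Γ} (hg : g * φ (hS (-1)) = φ (hS (-1)) * g) (B : SL k) : ∃ B', g * φ B * g⁻¹ = φ B' := by
  obtain ⟨A, c, hc, rfl⟩ := O.lc g hg
  refine ⟨A * B * A⁻¹, ?_⟩
  calc φ A * c * φ B * (φ A * c)⁻¹ = φ A * (c * φ B) * c⁻¹ * (φ A)⁻¹ := by group
    _ = φ A * (φ B * c) * c⁻¹ * (φ A)⁻¹ := by rw [hc]
    _ = φ (A * B * A⁻¹) := by rw [map_mul, map_mul, map_inv]; group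

end Fun1

/-- two fundamental subgroups which centralise each other's involutions commute -/
theorem comm_of_fun1 [IsAlgClosed k] (h2 : (2 : k) ≠ 0) {φ χ : SL k →* Γ} (O : Fun1 φ) (Q : Fun1 χ)
    (hne : φ (hS (-1)) ≠ χ (hS (-1))) (h1 : ∀ B, φ (hS (-1)) * χ B = χ B * φ (hS (-1)))
    (h3 : ∀ B, χ (hS (-1)) * φ B = φ B * χ (hS (-1))) (A B : SL k) : φ A * χ B = χ B * φ A := by
  let J : Subgroup (SL k) := φ.range.comap χ
  have hJ : ∀ A ∈ J, ∀ B : SL k, B * A * B⁻¹ ∈ J := by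
    rintro A ⟨C, hC⟩ B
    obtain ⟨C', hC'⟩ := O.norm (g := χ B) (h1 B).symm C
    refine ⟨C', ?_⟩
    rw [← hC', hC, map_mul, map_mul, map_inv]
  have hJ1 : ∀ A ∈ J, A = 1 := by
    intro A hA
    by_contra hA1
    obtain ⟨C, hC⟩ := neg_mem_of_normal hJ hA hA1
    have h4 : C * C = 1 := by
      apply O.inj
      rw [map_mul, hC, ← map_mul, neg_mul_neg, map_one, map_one]
    rcases uniq_inv h2 h4 with h5 | h5
    · rw [h5, map_one] at hC
      exact neg_ne_one h2 (Q.inj (hC.symm.trans (map_one χ).symm))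
    · rw [h5] at hC
      exact hne hC
  obtain ⟨C, hC⟩ := O.norm (g := χ B) (h1 B).symm A
  obtain ⟨E, hE⟩ := Q.norm (g := φ A) (h3 A).symm B⁻¹
  -- `χ B φ A (χ B)⁻¹ (φ A)⁻¹`
  have h6 : B * E ∈ J := by
    refine ⟨C * A⁻¹, ?_⟩
    rw [map_mul, map_inv, ← hC, map_mul, ← hE, map_inv]
    group
  have h7 := hJ1 _ h6
  have h8 : χ B * (φ A * (χ B)⁻¹ * (φ A)⁻¹) = 1 := by
    rw [← map_inv χ, hE, ← map_mul, h7, map_one]
  calc φ A * χ B = (χ B * (φ A * (χ B)⁻¹ * (φ A)⁻¹))⁻¹ * (χ B * φ A) := by group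
    _ = χ B * φ A := by rw [h8]; group

variable {ι : Type w} {ψ : ι → SL k →* Γ} {T : Subgroup Γ}

/-- **The field `inv`.** -/
theorem FrA.mk' [IsAlgClosed k] (h2 : (2 : k) ≠ 0) (inj : ∀ i, Function.Injective (ψ i))
    (zinj : ∀ i j, ψ i (hS (-1)) = ψ j (hS (-1)) → i = j)
    (comm : ∀ i j, i ≠ j → ∀ A B, ψ i A * ψ j B = ψ j B * ψ i A)
    (lc : ∀ i g, g * ψ i (hS (-1)) = ψ i (hS (-1)) * g → ∃ A c, (∀ B, c * ψ i B = ψ i B * c) ∧ g = ψ i A * c)
    (cen : ∀ g, (∀ i A, g * ψ i A = ψ i A * g) → g ∈ T) (abel : ∀ s ∈ T, ∀ t ∈ T, s * t = t * s)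
    (dg : ∀ i, ∀ c : k, c ≠ 0 → ψ i (hS c) ∈ T) : FrA ψ T where
  inj := inj
  zinj := zinj
  comm := comm
  lc := lc
  cen := cen
  abel := abel
  dg := dg
  inv := by
    intro g i h
    by_contra hno
    push Not at hno
    obtain ⟨i₀, hi⟩ : ∃ i₀ : k, i₀ * i₀ = -1 := by
      obtain ⟨x, hx⟩ := IsAlgClosed.exists_pow_nat_eq (-1 : k) (show 0 < 2 by norm_num)
      exact ⟨x, by rw [← pow_two, hx]⟩
    have O : ∀ j, Fun1 (ψ j) := fun j => ⟨inj j, lc j⟩
    let χ : SL k →* Γ := (MulAut.conj g).toMonoidHom.comp (ψ i)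
    have Q : Fun1 χ := (O i).conj g
    have hχ : ∀ A, χ A = g * ψ i A * g⁻¹ := fun A => rfl
    have h3 : ∀ j A, χ A * ψ j (hS (-1)) = ψ j (hS (-1)) * χ A := by
      intro j A
      have h4 := Q.cent_of_quat (z' := ψ j (hS (-1))) (x' := ψ j (hS i₀)) (n' := ψ j (wS 1))
        (by rw [← map_mul, xx_eq hi]) (by rw [← map_mul, nn_eq one_ne_zero])
        (by rw [← map_mul, ← map_mul, ← map_mul, xn_eq hi one_ne_zero]) (h j _).symm (h j _).symm A
      exact h4.symm
    have h5 : ∀ j A B, χ A * ψ j B = ψ j B * χ A := by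
      intro j A B
      exact (comm_of_fun1 h2 (O j) Q (fun e => hno j e.symm) (fun B => (h3 j B).symm) (fun B => h j B) B A).symm
    have h6 : ∀ A, χ A ∈ T := fun A => cen _ fun j B => h5 j A B
    have h7 : χ (hS i₀ * wS 1) = χ (wS 1 * hS i₀) := by
      rw [map_mul, map_mul, abel _ (h6 _) _ (h6 _)]
    have h8 : (hS i₀ * wS 1 : SL k) = wS 1 * hS i₀ := Q.inj h7
    rw [xn_eq hi one_ne_zero] at h8
    exact neg_ne_one h2 (mul_eq_left.1 h8)

end Cfsg.Agent.H554.RX
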