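import Cfsg.Agent.H554.RX.Cent
import Cfsg.Agent.H554.RX.Inv
import Cfsg.Agent.H554.BS.Iface
import Cfsg.Agent.H167.EX.Frame
import Cfsg.Agent.H971.RV.FrOKA
import Cfsg.Agent.H808.RV.FMain

/-!
# The frames of `F₄`, `E₆`, `E₇`, `E₈` (helper554, TEAM RV, box R3 exceptional)

* `frA_F4`, `frA_E6`, `frA_E7`, `frA_E8` : `FrA` for the root `SL₂(k)`'s;
* `exists_kok` : `KOK` from `OneP`;
* `perm_of_one` : `K` permutes the frame.
-/

set_option autoImplicit false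
set_option linter.unusedSectionVars false

namespace Cfsg.Agent.H554.RX

open CoxeterSystem Cfsg Cfsg.Lie Cfsg.Lie.ChevalleyDatum
open Cfsg.Agent.ChevalleyStructure Cfsg.Agent.ChevalleyStructure.Elts Cfsg.Agent.ChevalleyStructure.CoxeterGeom
  Cfsg.Agent.ChevalleyStructure.CoxeterGeomTypes Cfsg.Agent.ChevalleyStructure.NPerm
open Cfsg.Agent.Tits.Roots Cfsg.Agent.Tits.Core Cfsg.Agent.Nodes Cfsg.Agent.Nodes.Reps Cfsg.Agent.Nodes.BNOf
  Cfsg.Agent.Nodes.RGDChev Cfsg.Agent.Nodes.Bruhat Cfsg.Agent.Nodes.NormalForm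
open Cfsg.Agent.KFacts.RgdField Cfsg.Agent.KFacts.RgdChevCoord
open Cfsg.Agent.BpExc Cfsg.Agent.BpExc.TorCent Cfsg.Agent.BpExc.TorChev Cfsg.Agent.BpExc.Tow
  Cfsg.Agent.BpExc.TowChev Cfsg.Agent.BpExc.Fr Cfsg.Agent.BpExc.Pair Cfsg.Agent.BpExc.LangFr Cfsg.Agent.GpExc.Field
  Cfsg.Agent.BpExc.TorAll
open Cfsg.Agent.H469.Exc Cfsg.Agent.H469.Exc.SigFr
open Cfsg.Agent.Nodes.RGDFoldSL
open Cfsg.Agent.H167.EX
open Cfsg.Agent.H554.BS (OneP)
open Cfsg.Agent.H971.RV (chkO chkZ lng sF4 sE6 sE7 sE8 ltsF4 ltsE6 ltsE7 ltsE8 glF4 glE6 glE7 glE8)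

universe u v

/-! ### the frames -/

section Of

variable {D : ChevalleyDatum} {l : ℕ} {M : CoxeterMatrix (Fin l)} (hp : IsType D l M) {k : Type u} [Field k]
  {m : ℕ} {s : Fin m → ℕ} (hs : ∀ i, s i < D.nroots)

theorem zinj_of' (h2 : (2 : k) ≠ 0) (p : ℕ) [Fact p.Prime] [CharP k p] (hk : LocFin k) (hinj : Function.Injective s)
    (hchk : chkZ D (List.ofFn s) = true) (i j : Fin m) (h : zz hp (k := k) (hs i) = zz hp (hs j)) : i = j := by
  have h3 := (List.all_eq_true.1 hchk) (s i) ((List.mem_ofFn' _ _).2 ⟨i, rfl⟩)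
  have h4 := (List.all_eq_true.1 h3) (s j) ((List.mem_ofFn' _ _).2 ⟨j, rfl⟩)
  rw [Bool.or_eq_true, decide_eq_true_iff] at h4
  rcases h4 with h4 | h4
  · exact hinj h4
  · exfalso
    obtain ⟨r, hr, h6⟩ := List.any_eq_true.1 h4
    have h6' := of_decide_eq_true h6
    have hr' := List.mem_range.1 hr
    have e1 := ch_ph_hS hp (hs i) p hk (c := (-1 : k)) (neg_ne_zero.2 one_ne_zero) hr'
    have e2 := ch_ph_hS hp (hs j) p hk (c := (-1 : k)) (neg_ne_zero.2 one_ne_zero) hr'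
    unfold zz at h
    rw [h, e2, H971.RV.neg_one_zpow_eq, H971.RV.neg_one_zpow_eq] at e1
    split_ifs at e1 with h7 h8 h8
    · omega
    · push_cast at e1
      exact h2 (by linear_combination e1)
    · push_cast at e1
      exact h2 (by linear_combination -e1)
    · omega

/-- **The frame from the tables.** -/
theorem frA_of [IsAlgClosed k] (h2 : (2 : k) ≠ 0) (p : ℕ) [Fact p.Prime] [CharP k p] (hk : LocFin k)
    (hinj : Function.Injective s) (hgl : ∀ r < D.nroots, gl D (List.ofFn s) r ≠ 0)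
    (hgood : ∀ i, good D (s i) = true) (hlng : ∀ i, lng D (s i) = true) (hO : chkO D (List.ofFn s) = true)
    (hZ : chkZ D (List.ofFn s) = true) (hA : ∀ i, H808.RV.tabA D (s i) = true)
    (hB : ∀ i, H808.RV.tabB D (s i) = true) : FrA (fun i => ph hp k (hs i)) (TT D k) := by
  have hph : ∀ i, Function.Injective (ph hp k (hs i)) := fun i => H971.RV.good_inj hp (hs i) (hgood i) (hlng i) h2
  refine FrA.mk' h2 hph (fun i j h => zinj_of' hp hs h2 p hk hinj hZ i j h)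
    (fun i j hij A B => H971.RV.ort_of hp hs hO hinj i j hij A B) (fun i g hg => ?_) (fun g hg => ?_)
    (TT_comm hp) (fun i c hc => ph_hS_mem hp (hs i) hc)
  · obtain ⟨A, c, hc, he⟩ := (mem_LC hp (hs i)).1 (mem_LC_all hp (hs i) h2 p hk (hph i) (hA i) (hB i) hg)
    exact ⟨A, c, fun B => ((Subgroup.mem_centralizer_iff.1 hc) _ ⟨B, rfl⟩).symm, he⟩
  · have hL : ∀ s' ∈ List.ofFn s, s' < D.nroots := by
      intro s' hs'
      obtain ⟨i, rfl⟩ := (List.mem_ofFn' _ _).1 hs'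
      exact hs i
    obtain ⟨E, h1⟩ := exists_level hp hk g
    obtain ⟨g', hg'⟩ := h1 E le_rfl
    refine mem_TT_of_frame hp p hk (List.ofFn s) hL hgl (fun s' h => ?_) (N := Nat.card ↥(D.group ↥E.1))
      Nat.card_pos.ne' ?_
    · obtain ⟨i, hi⟩ := (List.mem_ofFn' _ _).1 h
      subst hi
      rw [Subgroup.mem_centralizer_iff]
      rintro _ ⟨A, rfl⟩
      exact (hg i A).symm
    · rw [← hg', ← map_pow, pow_card_eq_one', map_one]

end Of

section Types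

variable {k : Type u} [Field k] [IsAlgClosed k] (h2 : (2 : k) ≠ 0) (p : ℕ) [Fact p.Prime] [CharP k p] (hk : LocFin k)

theorem sF4_mem : ∀ i, sF4 i ∈ H808.RV.FF4 := by decide
theorem sE6_mem : ∀ i, sE6 i ∈ H808.RV.FE6 := by decide
theorem sE7_mem : ∀ i, sE7 i ∈ H808.RV.FE7 := by decide
theorem sE8_mem : ∀ i, sE8 i ∈ H808.RV.FE8 := by decide

theorem gF4 : ∀ i, good chevF4 (sF4 i) = true ∧ lng chevF4 (sF4 i) = true := by decide +kernel
theorem gE6 : ∀ i, good chevE6 (sE6 i) = true ∧ lng chevE6 (sE6 i) = true := by decide +kernel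
theorem gE7 : ∀ i, good chevE7 (sE7 i) = true ∧ lng chevE7 (sE7 i) = true := by decide +kernel
theorem gE8_0 : good chevE8 0 = true ∧ lng chevE8 0 = true := by decide +kernel
theorem gE8_1 : good chevE8 13 = true ∧ lng chevE8 13 = true := by decide +kernel
theorem gE8_2 : good chevE8 80 = true ∧ lng chevE8 80 = true := by decide +kernel
theorem gE8_3 : good chevE8 87 = true ∧ lng chevE8 87 = true := by decide +kernel
theorem gE8_4 : good chevE8 98 = true ∧ lng chevE8 98 = true := by decide +kernel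
theorem gE8_5 : good chevE8 104 = true ∧ lng chevE8 104 = true := by decide +kernel
theorem gE8_6 : good chevE8 113 = true ∧ lng chevE8 113 = true := by decide +kernel
theorem gE8_7 : good chevE8 118 = true ∧ lng chevE8 118 = true := by decide +kernel
theorem gE8 : ∀ i, good chevE8 (sE8 i) = true ∧ lng chevE8 (sE8 i) = true := by
  intro i
  fin_cases i
  · exact gE8_0
  · exact gE8_1
  · exact gE8_2
  · exact gE8_3
  · exact gE8_4
  · exact gE8_5
  · exact gE8_6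
  · exact gE8_7

theorem oF4 : chkO chevF4 (List.ofFn sF4) = true := by decide +kernel
theorem oE6 : chkO chevE6 (List.ofFn sE6) = true := by decide +kernel
theorem oE7 : chkO chevE7 (List.ofFn sE7) = true := by decide +kernel
theorem oE8 : chkO chevE8 (List.ofFn sE8) = true := by decide +kernel

theorem zF4 : chkZ chevF4 (List.ofFn sF4) = true := by decide +kernel
theorem zE6 : chkZ chevE6 (List.ofFn sE6) = true := by decide +kernel
theorem zE7 : chkZ chevE7 (List.ofFn sE7) = true := by decide +kernel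
theorem zE8 : chkZ chevE8 (List.ofFn sE8) = true := by decide +kernel

include h2 p hk

theorem frA_F4 {M : CoxeterMatrix (Fin 4)} (hp : IsType chevF4 4 M) (hs : ∀ i, sF4 i < chevF4.nroots) :
    FrA (fun i => ph hp k (hs i)) (TT chevF4 k) :=
  frA_of hp hs h2 p hk (by decide) glF4 (fun i => (gF4 i).1) (fun i => (gF4 i).2) oF4 zF4
    (fun i => H808.RV.tabA_F4 _ (sF4_mem i)) (fun i => H808.RV.tabB_F4 _ (sF4_mem i))

theorem frA_E6 {M : CoxeterMatrix (Fin 6)} (hp : IsType chevE6 6 M) (hs : ∀ i, sE6 i < chevE6.nroots) :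
    FrA (fun i => ph hp k (hs i)) (TT chevE6 k) :=
  frA_of hp hs h2 p hk (by decide) glE6 (fun i => (gE6 i).1) (fun i => (gE6 i).2) oE6 zE6
    (fun i => H808.RV.tabA_E6 _ (sE6_mem i)) (fun i => H808.RV.tabB_E6 _ (sE6_mem i))

theorem frA_E7 {M : CoxeterMatrix (Fin 7)} (hp : IsType chevE7 7 M) (hs : ∀ i, sE7 i < chevE7.nroots) :
    FrA (fun i => ph hp k (hs i)) (TT chevE7 k) :=
  frA_of hp hs h2 p hk (by decide) glE7 (fun i => (gE7 i).1) (fun i => (gE7 i).2) oE7 zE7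
    (fun i => H808.RV.tabA_E7 _ (sE7_mem i)) (fun i => H808.RV.tabB_E7 _ (sE7_mem i))

theorem frA_E8 {M : CoxeterMatrix (Fin 8)} (hp : IsType chevE8 8 M) (hs : ∀ i, sE8 i < chevE8.nroots) :
    FrA (fun i => ph hp k (hs i)) (TT chevE8 k) :=
  frA_of hp hs h2 p hk (by decide) glE8 (fun i => (gE8 i).1) (fun i => (gE8 i).2) oE8 zE8
    (fun i => H808.RV.tabA_E8 _ (sE8_mem i)) (fun i => H808.RV.tabB_E8 _ (sE8_mem i))

end Types

/-! ### `KOK` from `OneP` -/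

section Kok

variable {k : Type u} [Field k] {Γ : Type v} [Group Γ] {ι : Type*} {ψ : ι → SL k →* Γ} {T : Subgroup Γ}

theorem exists_kok {p : ℕ} {X : Set Γ} (hOne : OneP p X T) {i₀ : k} (K : Subgroup Γ) [Finite K] (h3 : ¬ 3 ∣ Nat.card K)
    (hp : ¬ p ∣ Nat.card K) (hX : X ⊆ K) (hx : ∀ i, ψ i (hS i₀) ∈ K) (hn : ∀ i, ψ i (wS 1) ∈ K) :
    ∃ N, KOK ψ T p i₀ K ((pCore 2 ↥K).map K.subtype) N := by
  obtain ⟨N, hNK, hNn, hNT, hNo, hNC⟩ := hOne K inferInstance h3 hp hX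
  refine ⟨N, inferInstance, h3, hp, hx, hn, ?_, ?_, ?_, hNK, hNn, hNo, hNT, hNC⟩
  · rintro _ ⟨a, -, rfl⟩
    exact a.2
  · rintro g hg _ ⟨a, ha, rfl⟩
    exact ⟨⟨g, hg⟩ * a * ⟨g, hg⟩⁻¹, (Cfsg.Agent.Lib.Cores.pCore_normal (G := ↥K) 2).conj_mem a ha _, rfl⟩
  · exact (Cfsg.Agent.Lib.Cores.pCore_isPGroup (G := ↥K) 2).map _

/-- **`K` permutes the frame.** -/
theorem perm_of_one (h2 : (2 : k) ≠ 0) {i₀ : k} (hi : i₀ * i₀ = -1) (O : FrA ψ T) {p : ℕ} {X : Set Γ}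
    (hOne : OneP p X T) (K : Subgroup Γ) [Finite K] (h3 : ¬ 3 ∣ Nat.card K)
    (hp : ¬ p ∣ Nat.card K) (hX : X ⊆ K) (hx : ∀ i, ψ i (hS i₀) ∈ K) (hn : ∀ i, ψ i (wS 1) ∈ K) :
    ∀ g ∈ K, ∀ i, ∃ j, g * ψ i (hS (-1)) * g⁻¹ = ψ j (hS (-1)) := by
  obtain ⟨N, C⟩ := exists_kok (ψ := ψ) hOne K h3 hp hX hx hn
  exact C.perm O h2 hi

end Kok

end Cfsg.Agent.H554.RX
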