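import Cfsg.Agent.H554.RX.TE
import Cfsg.Agent.H554.RX.SLQ

/-!
# `K` permutes the frame (helper554, TEAM RV, box R3 exceptional)

* `FrA.cent_of_quat` : if `z_i` commutes with a quaternion pair `(x', n')` over `z'` then `z'` centralises `L_i`;
* `KOK.zP` : `z_i ∈ P`;
* `KOK.perm` : `K` permutes the `z_i`.
-/

set_option autoImplicit false
set_option linter.unusedSectionVars false

namespace Cfsg.Agent.H554.RX

open Subgroup
open scoped Pointwise
open Cfsg.Agent.Nodes.RGDFoldSL (wS hS)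
open Cfsg.Agent.H167.EX (SL)

universe u v w

variable {k : Type u} [Field k] {Γ : Type v} [Group Γ] {ι : Type w} {ψ : ι → SL k →* Γ} {T : Subgroup Γ}

namespace FrA

variable (O : FrA ψ T)
include O

/-- the elements of `L_i` centralising `L_i` are central -/
theorem central {i : ι} {E : SL k} (h : ∀ B, ψ i E * ψ i B = ψ i B * ψ i E) : ∀ B, E * B = B * E := by
  intro B
  apply O.inj i
  rw [map_mul, map_mul, h]

/-- **Lemma Q.** -/
theorem cent_of_quat {i : ι} {z' x' n' : Γ} (hx : x' * x' = z') (hn : n' * n' = z') (hxn : x' * n' = n' * x' * z')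
    (h1 : x' * ψ i (hS (-1)) = ψ i (hS (-1)) * x') (h2 : n' * ψ i (hS (-1)) = ψ i (hS (-1)) * n') :
    ∀ B, z' * ψ i B = ψ i B * z' := by
  obtain ⟨A, c, hc, rfl⟩ := O.lc i x' h1
  obtain ⟨B, d, hd, rfl⟩ := O.lc i n' h2
  have e1 : z' = ψ i (A * A) * (c * c) := by
    rw [← hx, map_mul]
    calc ψ i A * c * (ψ i A * c) = ψ i A * (c * ψ i A) * c := by group
      _ = ψ i A * (ψ i A * c) * c := by rw [hc]
      _ = ψ i A * ψ i A * (c * c) := by group
  have e2 : z' = ψ i (B * B) * (d * d) := by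
    rw [← hn, map_mul]
    calc ψ i B * d * (ψ i B * d) = ψ i B * (d * ψ i B) * d := by group
      _ = ψ i B * (ψ i B * d) * d := by rw [hd]
      _ = ψ i B * ψ i B * (d * d) := by group
  have hcc : ∀ X, (c * c) * ψ i X = ψ i X * (c * c) := fun X => by
    rw [mul_assoc, hc, ← mul_assoc, hc, mul_assoc]
  have hdd : ∀ X, (d * d) * ψ i X = ψ i X * (d * d) := fun X => by
    rw [mul_assoc, hd, ← mul_assoc, hd, mul_assoc]
  -- it suffices that `A²` is central
  suffices hA : ∀ P : SL k, (A * A) * P = P * (A * A) by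
    intro X
    rw [e1, mul_assoc, hcc, ← mul_assoc, ← map_mul, hA, map_mul, mul_assoc]
  by_contra hA
  -- `A² = ε B²`
  have hε : ∀ P : SL k, ((B * B)⁻¹ * (A * A)) * P = P * ((B * B)⁻¹ * (A * A)) := by
    refine O.central (i := i) fun X => ?_
    have e3 : ψ i ((B * B)⁻¹ * (A * A)) = (d * d) * (c * c)⁻¹ := by
      rw [map_mul, map_inv, inv_mul_eq_iff_eq_mul, ← mul_assoc, ← e2, e1]
      group
    have hcc' : (c * c)⁻¹ * ψ i X = ψ i X * (c * c)⁻¹ := by
      rw [inv_mul_eq_iff_eq_mul, ← mul_assoc, hcc]; group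
    rw [e3, mul_assoc, hcc', ← mul_assoc, hdd]
    group
  obtain ⟨ε, hεd⟩ : ∃ ε, ε = (B * B)⁻¹ * (A * A) := ⟨_, rfl⟩
  rw [← hεd] at hε
  have hAB : A * A = (B * B) * ε := by rw [hεd]; group
  have hBA : B * (A * A) = (A * A) * B := by
    rw [hAB]
    calc B * (B * B * ε) = B * B * (B * ε) := by group
      _ = B * B * (ε * B) := by rw [hε]
      _ = B * B * ε * B := by group
  have hAA : A * (A * A) = (A * A) * A := by group
  have hcomm : A * B = B * A := Cfsg.Agent.H167.EX.cent_abel hAA hBA hA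
  apply hA
  have hinv : ∀ P : SL k, (A * A)⁻¹ * P = P * (A * A)⁻¹ := by
    refine O.central (i := i) fun X => ?_
    have e4 : ψ i (A * A)⁻¹ = (d * c * (c * c)) * (c * d)⁻¹ := by
      have e5 : ψ i (A * B) * (c * d) = ψ i (A * B) * (ψ i (A * A) * (d * c * (c * c))) := by
        calc ψ i (A * B) * (c * d) = ψ i A * (ψ i B * c) * d := by rw [map_mul]; group
          _ = ψ i A * (c * ψ i B) * d := by rw [hc]
          _ = (ψ i A * c) * (ψ i B * d) := by group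
          _ = (ψ i B * d) * (ψ i A * c) * z' := hxn
          _ = ψ i B * (d * ψ i A) * c * (ψ i (A * A) * (c * c)) := by rw [e1]; group
          _ = ψ i B * (ψ i A * d) * c * (ψ i (A * A) * (c * c)) := by rw [hd]
          _ = ψ i B * ψ i A * d * (c * ψ i (A * A)) * (c * c) := by group
          _ = ψ i B * ψ i A * d * (ψ i (A * A) * c) * (c * c) := by rw [hc]
          _ = ψ i B * ψ i A * (d * ψ i (A * A)) * (c * (c * c)) := by group
          _ = ψ i B * ψ i A * (ψ i (A * A) * d) * (c * (c * c)) := by rw [hd]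
          _ = ψ i (A * B) * (ψ i (A * A) * (d * c * (c * c))) := by rw [hcomm]; simp only [map_mul]; group
      have e6 := mul_left_cancel e5
      rw [map_inv, eq_mul_inv_iff_mul_eq, inv_mul_eq_iff_eq_mul]
      exact e6
    have q1 : (d * c * (c * c)) * ψ i X = ψ i X * (d * c * (c * c)) := by
      calc (d * c * (c * c)) * ψ i X = d * c * ((c * c) * ψ i X) := by group
        _ = d * (c * ψ i X) * (c * c) := by rw [hcc]; group
        _ = (d * ψ i X) * c * (c * c) := by rw [hc]; group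
        _ = ψ i X * (d * c * (c * c)) := by rw [hd]; group
    have q2 : (c * d) * ψ i X = ψ i X * (c * d) := by rw [mul_assoc, hd, ← mul_assoc, hc, mul_assoc]
    have q3 : (c * d)⁻¹ * ψ i X = ψ i X * (c * d)⁻¹ := by
      rw [inv_mul_eq_iff_eq_mul, ← mul_assoc, q2]; group
    rw [e4, mul_assoc, q3, ← mul_assoc, q1]
    group
  intro P
  have h3 := hinv P
  calc (A * A) * P = (A * A) * (P * (A * A)⁻¹) * (A * A) := by group
    _ = (A * A) * ((A * A)⁻¹ * P) * (A * A) := by rw [h3]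
    _ = P * (A * A) := by group

/-- an element commuting with `z_i` and the quaternion group centralises `L_i` -/
theorem cent_of_comm (h2 : (2 : k) ≠ 0) {i₀ : k} (hi : i₀ * i₀ = -1) {i : ι} {g : Γ}
    (h1 : g * ψ i (hS i₀) = ψ i (hS i₀) * g) (h3 : g * ψ i (wS 1) = ψ i (wS 1) * g) :
    ∀ B, g * ψ i B = ψ i B * g := by
  have hz : g * ψ i (hS (-1)) = ψ i (hS (-1)) * g := by
    rw [← xx_eq hi, map_mul, ← mul_assoc, h1, mul_assoc, h1, mul_assoc]
  obtain ⟨A, c, hc, rfl⟩ := O.lc i g hz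
  have key : ∀ X, ψ i A * c * ψ i X = ψ i X * (ψ i A * c) → A * X = X * A := by
    intro X h
    apply O.inj i
    rw [mul_assoc, hc, ← mul_assoc, ← mul_assoc] at h
    rw [map_mul, map_mul]
    exact mul_right_cancel h
  have h4 := scalar_of_comm hi h2 one_ne_zero (key _ h1) (key _ h3)
  intro B
  rw [mul_assoc, hc, ← mul_assoc, ← map_mul, central_iff.2 h4 B, map_mul, mul_assoc]

end FrA

/-- a 3-cycle -/
theorem three_dvd_of_cycle {K : Subgroup Γ} [Finite K] {s a b c : Γ} (hs : s ∈ K) (hab : a ≠ b)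
    (f1 : s * a * s⁻¹ = b) (f2 : s * b * s⁻¹ = c) (f3 : s * c * s⁻¹ = a) : 3 ∣ Nat.card K := by
  by_contra h3
  have key : ∀ n : ℕ, s ^ (3 * n) * a * (s ^ (3 * n))⁻¹ = a := by
    intro n
    induction n with
    | zero => simp
    | succ n ih =>
      calc s ^ (3 * (n + 1)) * a * (s ^ (3 * (n + 1)))⁻¹
          = s * (s * (s * (s ^ (3 * n) * a * (s ^ (3 * n))⁻¹) * s⁻¹) * s⁻¹) * s⁻¹ := by
            rw [show 3 * (n + 1) = 1 + (1 + (1 + 3 * n)) by ring, pow_add, pow_add, pow_add, pow_one]; group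
        _ = a := by rw [ih, f1, f2, f3]
  have hm : s ^ Nat.card K = 1 := by
    have h := pow_card_eq_one' (x := (⟨s, hs⟩ : K))
    exact congrArg Subtype.val h
  have h4 : Nat.card K = 3 * (Nat.card K / 3) + Nat.card K % 3 := (Nat.div_add_mod _ _).symm
  have h5 : Nat.card K % 3 = 1 ∨ Nat.card K % 3 = 2 := by omega
  have h6 := key (Nat.card K / 3)
  rcases h5 with h5 | h5
  · rw [h5] at h4
    rw [h4, pow_add, pow_one] at hm
    have h7 : s ^ (3 * (Nat.card K / 3)) = s⁻¹ := eq_inv_of_mul_eq_one_left hm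
    rw [h7, inv_inv] at h6
    apply hab
    rw [← f1]
    calc a = s * (s⁻¹ * a * s) * s⁻¹ := by group
      _ = s * a * s⁻¹ := by rw [h6]
  · rw [h5] at h4
    rw [h4, pow_add] at hm
    have h7 : s ^ (3 * (Nat.card K / 3)) = (s ^ 2)⁻¹ := eq_inv_of_mul_eq_one_left hm
    rw [h7, inv_inv] at h6
    have h8 : a = c := by
      calc a = s ^ 2 * ((s ^ 2)⁻¹ * a * s ^ 2) * (s ^ 2)⁻¹ := by group
        _ = s ^ 2 * a * (s ^ 2)⁻¹ := by rw [h6]
        _ = s * (s * a * s⁻¹) * s⁻¹ := by rw [pow_two]; group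
        _ = c := by rw [f1, f2]
    apply hab
    rw [← f1]
    calc a = s * c * s⁻¹ := f3.symm
      _ = s * a * s⁻¹ := by rw [← h8]

namespace KOK

variable {p : ℕ} {i₀ : k} {K P N : Subgroup Γ} (C : KOK ψ T p i₀ K P N) (O : FrA ψ T) (h2 : (2 : k) ≠ 0)
  (hi : i₀ * i₀ = -1)

include C hi in
theorem zK (i : ι) : ψ i (hS (-1)) ∈ K := by
  rw [← xx_eq hi, map_mul]
  exact K.mul_mem (C.x i) (C.x i)

/-- the subgroup `L_i ∩ K` of `K` -/
def MK (ψ : ι → SL k →* Γ) (K : Subgroup Γ) (i : ι) : Subgroup ↥K := (ψ i).range.comap K.subtype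

include O h2 in
/-- the quaternion pair -/
theorem qp (i : ι) : QP (MK ψ K i) (⟨ψ i (hS (-1)), C.zK hi i⟩ : ↥K) ⟨ψ i (hS i₀), C.x i⟩ ⟨ψ i (wS 1), C.n i⟩ where
  hx := ⟨_, rfl⟩
  hn := ⟨_, rfl⟩
  xx := by
    apply Subtype.ext
    show ψ i (hS i₀) * ψ i (hS i₀) = ψ i (hS (-1))
    rw [← map_mul, xx_eq hi]
  nn := by
    apply Subtype.ext
    show ψ i (wS 1) * ψ i (wS 1) = ψ i (hS (-1))
    rw [← map_mul, nn_eq one_ne_zero]
  xn := by
    apply Subtype.ext
    show ψ i (hS i₀) * ψ i (wS 1) = ψ i (wS 1) * ψ i (hS i₀) * ψ i (hS (-1))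
    rw [← map_mul, ← map_mul, ← map_mul, xn_eq hi one_ne_zero]
  sq := by
    apply Subtype.ext
    show ψ i (hS (-1)) * ψ i (hS (-1)) = 1
    rw [← map_mul, neg_mul_neg, map_one]
  ne := by
    intro h
    have h1 : ψ i (hS (-1)) = 1 := congrArg Subtype.val h
    exact neg_ne_one h2 (O.inj i (h1.trans (map_one _).symm))
  uniq := by
    rintro ⟨_, htK⟩ ⟨A, rfl⟩ ht
    have h1 : ψ i A * ψ i A = 1 := congrArg Subtype.val ht
    rw [← map_mul] at h1
    rcases uniq_inv h2 (O.inj i (h1.trans (map_one _).symm)) with h | h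
    · left; apply Subtype.ext; show ψ i A = 1; rw [h, map_one]
    · right; apply Subtype.ext; show ψ i A = _; rw [h]
  cent := by
    rintro ⟨g, hg⟩ hgz ⟨_, hm⟩ ⟨B, rfl⟩
    have h1 : g * ψ i (hS (-1)) = ψ i (hS (-1)) * g := congrArg Subtype.val hgz
    obtain ⟨A, c, hc, hgc⟩ := O.lc i g h1
    refine ⟨A * B * A⁻¹, ?_⟩
    show ψ i (A * B * A⁻¹) = g * ψ i B * g⁻¹
    rw [hgc]
    calc ψ i (A * B * A⁻¹) = ψ i A * (ψ i B * c) * c⁻¹ * (ψ i A)⁻¹ := by rw [map_mul, map_mul, map_inv]; group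
      _ = ψ i A * (c * ψ i B) * c⁻¹ * (ψ i A)⁻¹ := by rw [hc]
      _ = ψ i A * c * ψ i B * (ψ i A * c)⁻¹ := by group

include C O h2 hi in
/-- the `z_i` lie in `P` -/
theorem zP (i : ι) : ψ i (hS (-1)) ∈ P := by
  have hfin := C.fin
  by_contra hz
  have hq := C.qp O h2 hi i
  have hP2 : IsPGroup 2 (P.subgroupOf K) := C.P2.comap_of_injective _ K.subtype_injective
  have h4 : ∀ c ∈ P, c * ψ i (hS (-1)) = ψ i (hS (-1)) * c := by
    intro c hc
    have h5 := hq.t4 (X := P.subgroupOf K) hP2 (fun h => hz h)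
      (fun c hc => C.Pn _ (C.x i) _ hc) (fun c hc => C.Pn _ (C.n i) _ hc) ⟨c, C.PK hc⟩ hc
    exact congrArg Subtype.val h5
  have hzT : ψ i (hS (-1)) ∈ T := O.dg i (-1) (neg_ne_zero.2 one_ne_zero)
  have h6 := C.cen _ (C.zK hi i) (fun a ha => O.abel _ hzT _ (C.NT ha)) (fun a ha => (h4 a ha).symm)
  -- `P ⊔ N = P N`
  have hn : P ≤ normalizer (N : Set Γ) := by
    intro a ha
    have hfN : Finite N := (Set.Finite.subset (Set.toFinite (K : Set Γ)) C.NK).to_subtype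
    rw [mem_normalizer_iff]
    intro b
    refine ⟨fun hb => C.Nn a (C.PK ha) b hb, fun hb => ?_⟩
    have h7 := C.Nn a⁻¹ (K.inv_mem (C.PK ha)) _ hb
    have e : a⁻¹ * (a * b * a⁻¹) * a⁻¹⁻¹ = b := by group
    rwa [e] at h7
  rw [← SetLike.mem_coe, coe_mul_of_left_le_normalizer_right _ _ hn] at h6
  obtain ⟨a, ha, b, hb, hab⟩ := h6
  have hab' : a * b = ψ i (hS (-1)) := hab
  apply hz
  have hzz : ψ i (hS (-1)) * ψ i (hS (-1)) = 1 := by rw [← map_mul, neg_mul_neg, map_one]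
  -- `a` commutes with `z`
  have h7 : a * ψ i (hS (-1)) = ψ i (hS (-1)) * a := h4 a ha
  have hbe : b = a⁻¹ * ψ i (hS (-1)) := by rw [← hab']; group
  have hbb : b * b = (a * a)⁻¹ := by
    rw [hbe]
    calc a⁻¹ * ψ i (hS (-1)) * (a⁻¹ * ψ i (hS (-1)))
        = a⁻¹ * (ψ i (hS (-1)) * a⁻¹) * ψ i (hS (-1)) := by group
      _ = a⁻¹ * (a⁻¹ * ψ i (hS (-1))) * ψ i (hS (-1)) := by
          congr 2
          rw [eq_inv_mul_iff_mul_eq, ← mul_assoc, h7]; group
      _ = a⁻¹ * a⁻¹ * (ψ i (hS (-1)) * ψ i (hS (-1))) := by group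
      _ = (a * a)⁻¹ := by rw [hzz]; group
  -- `b * b` has 2-power order and odd order
  have hb1 : b = 1 := by
    obtain ⟨j, hj⟩ := C.P2 ⟨a * a, P.mul_mem ha ha⟩
    have hj' : (a * a) ^ 2 ^ j = 1 := by simpa using congrArg Subtype.val hj
    have h8 : b ^ (2 ^ (j + 1)) = 1 := by
      rw [pow_succ', pow_mul, pow_two, hbb, inv_pow, hj', inv_one]
    have h9 : orderOf b ∣ 2 ^ (j + 1) := orderOf_dvd_of_pow_eq_one h8
    have h10 : orderOf b ∣ Nat.card N := by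
      have := orderOf_dvd_natCard (⟨b, hb⟩ : N)
      rwa [← Subgroup.orderOf_coe] at this
    have h11 : Nat.Coprime (2 ^ (j + 1)) (Nat.card N) := Nat.Coprime.pow_left _ ((Nat.coprime_two_left).2 C.No)
    have h12 := Nat.eq_one_of_dvd_coprimes h11 h9 h10
    exact orderOf_eq_one_iff.1 h12
  rw [← hab', hb1, mul_one]
  exact ha

include C O h2 hi in
/-- **`K` permutes the `z_i`.** -/
theorem perm : ∀ g ∈ K, ∀ i, ∃ j, g * ψ i (hS (-1)) * g⁻¹ = ψ j (hS (-1)) := by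
  have hfin := C.fin
  intro g hg i
  by_contra hno
  push Not at hno
  -- all the conjugates commute
  let 𝓩 : Set ↥K := {t | ∃ (g : ↥K) (i : ι), t = g * ⟨ψ i (hS (-1)), C.zK hi i⟩ * g⁻¹}
  have hcomm := comm_all (H := ↥K) C.three (𝓩 := 𝓩) (by
    rintro _ ⟨g, i, rfl⟩
    exact ⟨_, _, _, (C.qp O h2 hi i).conj g⟩) (by
    rintro h _ ⟨g, i, rfl⟩
    exact ⟨h * g, i, by group⟩) (P := P.subgroupOf K) (C.P2.comap_of_injective _ K.subtype_injective) (by
    rintro _ ⟨g, i, rfl⟩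
    exact C.Pn g.1 g.2 _ (C.zP O h2 hi i))
  have hmem : ∀ (h : Γ) (hh : h ∈ K) (i : ι), (⟨h, hh⟩ : ↥K) * ⟨ψ i (hS (-1)), C.zK hi i⟩ * (⟨h, hh⟩ : ↥K)⁻¹ ∈ 𝓩 :=
    fun h hh i => ⟨_, _, rfl⟩
  -- commuting in `Γ`
  have hc : ∀ (h h' : Γ) (_ : h ∈ K) (_ : h' ∈ K) (i j : ι), (h * ψ i (hS (-1)) * h⁻¹) * (h' * ψ j (hS (-1)) * h'⁻¹) =
      (h' * ψ j (hS (-1)) * h'⁻¹) * (h * ψ i (hS (-1)) * h⁻¹) := by
    intro h h' hh hh' i j
    exact congrArg Subtype.val (hcomm _ (hmem h hh i) _ (hmem h' hh' j))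
  obtain ⟨z', hz'⟩ : ∃ z', z' = g * ψ i (hS (-1)) * g⁻¹ := ⟨_, rfl⟩
  have hz'z' : z' * z' = 1 := by
    rw [hz']
    calc g * ψ i (hS (-1)) * g⁻¹ * (g * ψ i (hS (-1)) * g⁻¹) = g * (ψ i (hS (-1)) * ψ i (hS (-1))) * g⁻¹ := by group
      _ = 1 := by rw [← map_mul, neg_mul_neg, map_one]; group
  -- `z'` centralises all the `L_j`
  have hcen : ∀ j A, (g * ψ i (hS (-1)) * g⁻¹) * ψ j A = ψ j A * (g * ψ i (hS (-1)) * g⁻¹) := by
    intro j
    rw [← hz']
    obtain ⟨zj, hzj⟩ : ∃ zj, zj = ψ j (hS (-1)) := ⟨_, rfl⟩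
    have hzj2 : zj * zj = 1 := by rw [hzj, ← map_mul, neg_mul_neg, map_one]
    have hne : z' ≠ zj := by rw [hz', hzj]; exact hno j
    have hzz : z' * zj = zj * z' := by
      have h1 := hc g 1 hg K.one_mem i j
      rw [hz', hzj]
      simpa using h1
    -- the images of `z'` under the quaternion group
    have key : ∀ q ∈ (ψ j).range, q ∈ K → q * z' * q⁻¹ = z' ∨ q * z' * q⁻¹ = zj * z' := by
      rintro _ ⟨A, rfl⟩ hqK
      obtain ⟨B, c, hcB, hB⟩ := O.lc j z' (by rw [← hzj]; exact hzz)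
      have h1 : ψ j A * z' * (ψ j A)⁻¹ * z' = ψ j (A * (B * A⁻¹ * B⁻¹)) := by
        have e0 : z'⁻¹ = z' := inv_eq_of_mul_eq_one_left hz'z'
        calc ψ j A * z' * (ψ j A)⁻¹ * z' = ψ j A * (z' * (ψ j A)⁻¹ * z'⁻¹) := by rw [e0]; group
          _ = ψ j A * (ψ j B * (c * ψ j A⁻¹) * c⁻¹ * (ψ j B)⁻¹) := by rw [hB, map_inv]; group
          _ = ψ j A * (ψ j B * (ψ j A⁻¹ * c) * c⁻¹ * (ψ j B)⁻¹) := by rw [hcB]
          _ = ψ j (A * (B * A⁻¹ * B⁻¹)) := by rw [map_mul, map_mul, map_mul, map_inv (ψ j) B]; group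
      have h3 : (ψ j A * z' * (ψ j A)⁻¹) * z' = z' * (ψ j A * z' * (ψ j A)⁻¹) := by
        have h4 := hc (ψ j A * g) g (K.mul_mem hqK hg) hg i i
        have e1 : ψ j A * g * ψ i (hS (-1)) * (ψ j A * g)⁻¹ = ψ j A * z' * (ψ j A)⁻¹ := by rw [hz']; group
        rwa [e1, ← hz'] at h4
      have h5 : (A * (B * A⁻¹ * B⁻¹)) * (A * (B * A⁻¹ * B⁻¹)) = 1 := by
        apply O.inj j
        rw [map_mul, ← h1, map_one]
        calc ψ j A * z' * (ψ j A)⁻¹ * z' * (ψ j A * z' * (ψ j A)⁻¹ * z')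
            = ψ j A * z' * (ψ j A)⁻¹ * (z' * (ψ j A * z' * (ψ j A)⁻¹)) * z' := by group
          _ = ψ j A * z' * (ψ j A)⁻¹ * ((ψ j A * z' * (ψ j A)⁻¹) * z') * z' := by rw [h3]
          _ = ψ j A * (z' * z') * (ψ j A)⁻¹ * (z' * z') := by group
          _ = 1 := by rw [hz'z']; group
      rcases uniq_inv h2 h5 with h6 | h6
      · left
        rw [h6, map_one] at h1
        calc ψ j A * z' * (ψ j A)⁻¹ = ψ j A * z' * (ψ j A)⁻¹ * z' * z' := by rw [mul_assoc _ z' z', hz'z', mul_one]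
          _ = z' := by rw [h1, one_mul]
      · right
        rw [h6, ← hzj] at h1
        calc ψ j A * z' * (ψ j A)⁻¹ = ψ j A * z' * (ψ j A)⁻¹ * z' * z' := by rw [mul_assoc _ z' z', hz'z', mul_one]
          _ = zj * z' := by rw [h1]
    -- the images of `z_j` under the conjugate quaternion group
    have key' : ∀ q, (g⁻¹ * q * g) ∈ (ψ i).range → q ∈ K → q * zj * q⁻¹ = zj ∨ q * zj * q⁻¹ = z' * zj := by
      rintro q ⟨A, hA⟩ hqK
      have hzz2 : (g⁻¹ * zj * g) * ψ i (hS (-1)) = ψ i (hS (-1)) * (g⁻¹ * zj * g) := by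
        have e1 : ψ i (hS (-1)) = g⁻¹ * z' * g := by rw [hz']; group
        rw [e1]
        calc g⁻¹ * zj * g * (g⁻¹ * z' * g) = g⁻¹ * (zj * z') * g := by group
          _ = g⁻¹ * (z' * zj) * g := by rw [hzz]
          _ = _ := by group
      obtain ⟨B, c, hcB, hB⟩ := O.lc i _ hzz2
      obtain ⟨y, hy⟩ : ∃ y, y = g⁻¹ * zj * g := ⟨_, rfl⟩
      rw [← hy] at hB hzz2
      have hyy : y * y = 1 := by
        rw [hy]
        calc g⁻¹ * zj * g * (g⁻¹ * zj * g) = g⁻¹ * (zj * zj) * g := by group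
          _ = 1 := by rw [hzj2]; group
      have e0 : y⁻¹ = y := inv_eq_of_mul_eq_one_left hyy
      have h1 : ψ i A * y * (ψ i A)⁻¹ * y = ψ i (A * (B * A⁻¹ * B⁻¹)) := by
        calc ψ i A * y * (ψ i A)⁻¹ * y = ψ i A * (y * (ψ i A)⁻¹ * y⁻¹) := by rw [e0]; group
          _ = ψ i A * (ψ i B * (c * ψ i A⁻¹) * c⁻¹ * (ψ i B)⁻¹) := by rw [hB, map_inv]; group
          _ = ψ i A * (ψ i B * (ψ i A⁻¹ * c) * c⁻¹ * (ψ i B)⁻¹) := by rw [hcB]
          _ = ψ i (A * (B * A⁻¹ * B⁻¹)) := by rw [map_mul, map_mul, map_mul, map_inv (ψ i) B]; group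
      have h3 : (q * zj * q⁻¹) * zj = zj * (q * zj * q⁻¹) := by
        have h4 := hc q 1 hqK K.one_mem j j
        rw [← hzj] at h4
        simpa using h4
      have h3' : (ψ i A * y * (ψ i A)⁻¹) * y = y * (ψ i A * y * (ψ i A)⁻¹) := by
        rw [hA, hy]
        calc g⁻¹ * q * g * (g⁻¹ * zj * g) * (g⁻¹ * q * g)⁻¹ * (g⁻¹ * zj * g) = g⁻¹ * ((q * zj * q⁻¹) * zj) * g := by group
          _ = g⁻¹ * (zj * (q * zj * q⁻¹)) * g := by rw [h3]
          _ = _ := by group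
      have h5 : (A * (B * A⁻¹ * B⁻¹)) * (A * (B * A⁻¹ * B⁻¹)) = 1 := by
        apply O.inj i
        rw [map_mul, ← h1, map_one]
        calc ψ i A * y * (ψ i A)⁻¹ * y * (ψ i A * y * (ψ i A)⁻¹ * y)
            = ψ i A * y * (ψ i A)⁻¹ * (y * (ψ i A * y * (ψ i A)⁻¹)) * y := by group
          _ = ψ i A * y * (ψ i A)⁻¹ * ((ψ i A * y * (ψ i A)⁻¹) * y) * y := by rw [h3']
          _ = ψ i A * (y * y) * (ψ i A)⁻¹ * (y * y) := by group
          _ = 1 := by rw [hyy]; group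
      have e2 : q * zj * q⁻¹ = g * (ψ i A * y * (ψ i A)⁻¹ * y) * g⁻¹ * zj := by
        rw [hA, hy]
        calc q * zj * q⁻¹ = q * zj * q⁻¹ * (zj * zj) := by rw [hzj2, mul_one]
          _ = _ := by group
      rcases uniq_inv h2 h5 with h6 | h6
      · left
        rw [e2, h1, h6, map_one]
        group
      · right
        rw [e2, h1, h6, hz']
    -- the two cases
    by_cases hA : (ψ j (hS i₀) * z' * (ψ j (hS i₀))⁻¹ = z') ∧ (ψ j (wS 1) * z' * (ψ j (wS 1))⁻¹ = z')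
    · exact O.cent_of_comm h2 hi (mul_inv_eq_iff_eq_mul.1 hA.1).symm (mul_inv_eq_iff_eq_mul.1 hA.2).symm
    · -- some `q` in the quaternion group of `L_j` moves `z'`
      obtain ⟨q, hqr, hqK, hqne⟩ : ∃ q ∈ (ψ j).range, q ∈ K ∧ q * z' * q⁻¹ ≠ z' := by
        by_contra hcon
        push Not at hcon
        exact hA ⟨hcon _ ⟨_, rfl⟩ (C.x j), hcon _ ⟨_, rfl⟩ (C.n j)⟩
      have hq1 : q * z' * q⁻¹ = zj * z' := (key q hqr hqK).resolve_left hqne
      have hqz : q * zj * q⁻¹ = zj := by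
        obtain ⟨A, rfl⟩ := hqr
        rw [hzj, ← map_mul, ← neg_comm, map_mul, mul_inv_cancel_right]
      -- hence the conjugate quaternion group centralises `z_j`
      have key2 : ∀ q', (g⁻¹ * q' * g) ∈ (ψ i).range → q' ∈ K → q' * zj * q'⁻¹ = zj := by
        intro q' hq'r hq'K
        by_contra hne'
        have h5 : q' * zj * q'⁻¹ = z' * zj := (key' q' hq'r hq'K).resolve_left hne'
        have h6 : q' * z' * q'⁻¹ = z' := by
          obtain ⟨A, hA⟩ := hq'r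
          have e1 : q' = g * ψ i A * g⁻¹ := by rw [hA]; group
          rw [e1, hz']
          calc g * ψ i A * g⁻¹ * (g * ψ i (hS (-1)) * g⁻¹) * (g * ψ i A * g⁻¹)⁻¹
              = g * (ψ i A * ψ i (hS (-1))) * (ψ i A)⁻¹ * g⁻¹ := by group
            _ = g * (ψ i (hS (-1)) * ψ i A) * (ψ i A)⁻¹ * g⁻¹ := by rw [← map_mul, ← neg_comm, map_mul]
            _ = g * ψ i (hS (-1)) * g⁻¹ := by group
        -- a 3-cycle : `s = q * q'`
        have f1 : (q * q') * zj * (q * q')⁻¹ = z' := by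
          calc (q * q') * zj * (q * q')⁻¹ = q * (q' * zj * q'⁻¹) * q⁻¹ := by group
            _ = (q * z' * q⁻¹) * (q * zj * q⁻¹) := by rw [h5]; group
            _ = zj * z' * zj := by rw [hq1, hqz]
            _ = z' * (zj * zj) := by rw [← hzz]; group
            _ = z' := by rw [hzj2, mul_one]
        have f2 : (q * q') * z' * (q * q')⁻¹ = zj * z' := by
          calc (q * q') * z' * (q * q')⁻¹ = q * (q' * z' * q'⁻¹) * q⁻¹ := by group
            _ = zj * z' := by rw [h6, hq1]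
        have f3 : (q * q') * (zj * z') * (q * q')⁻¹ = zj := by
          calc (q * q') * (zj * z') * (q * q')⁻¹ = ((q * q') * zj * (q * q')⁻¹) * ((q * q') * z' * (q * q')⁻¹) := by group
            _ = z' * (zj * z') := by rw [f1, f2]
            _ = z' * (z' * zj) := by rw [hzz]
            _ = zj := by rw [← mul_assoc, hz'z', one_mul]
        exact C.three (three_dvd_of_cycle (K := K) (K.mul_mem hqK hq'K) hne.symm f1 f2 f3)
      have hx' := key2 (g * ψ i (hS i₀) * g⁻¹) ⟨hS i₀, by group⟩ (K.mul_mem (K.mul_mem hg (C.x i)) (K.inv_mem hg))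
      have hn' := key2 (g * ψ i (wS 1) * g⁻¹) ⟨wS 1, by group⟩ (K.mul_mem (K.mul_mem hg (C.n i)) (K.inv_mem hg))
      refine O.cent_of_quat (i := j) (x' := g * ψ i (hS i₀) * g⁻¹) (n' := g * ψ i (wS 1) * g⁻¹) ?_ ?_ ?_ ?_ ?_
      · rw [hz', ← xx_eq hi, map_mul]; group
      · rw [hz', ← nn_eq (k := k) one_ne_zero, map_mul]; group
      · rw [hz']
        calc g * ψ i (hS i₀) * g⁻¹ * (g * ψ i (wS 1) * g⁻¹) = g * ψ i (hS i₀ * wS 1) * g⁻¹ := by rw [map_mul]; group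
          _ = g * ψ i (wS 1 * hS i₀ * hS (-1)) * g⁻¹ := by rw [xn_eq hi one_ne_zero]
          _ = _ := by rw [map_mul, map_mul]; group
      · rw [← hzj]; exact mul_inv_eq_iff_eq_mul.1 hx'
      · rw [← hzj]; exact mul_inv_eq_iff_eq_mul.1 hn'
  obtain ⟨j, hj⟩ := O.inv g i hcen
  exact hno j hj

end KOK

end Cfsg.Agent.H554.RX
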